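/-
Involutions in double covers of small alternating groups: the general argument (helper16).
-/
import Mathlib
import Cfsg.Prelude.Def_SporadicB
import Cfsg.Agent.Lib.ToddCox.OpMap

set_option autoImplicit false

namespace Cfsg.Agent.Lib.ToddCox.AnCov

open Equiv Equiv.Perm

section cov

variable {H K : Type*} [Group H] [Group K]

/-- The projection of a double cover. -/
theorem cov_pi (h : Cfsg.IsNonsplitDoubleCover H K) :
    ∃ π : H →* K, Function.Surjective π ∧ π.ker = Subgroup.center H := by
  obtain ⟨-, ⟨e⟩, -⟩ := h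
  refine ⟨e.toMonoidHom.comp (QuotientGroup.mk' _), ?_, ?_⟩
  · exact e.surjective.comp (QuotientGroup.mk'_surjective _)
  · ext x
    simp [MonoidHom.mem_ker]

theorem center_sq (h : Cfsg.IsNonsplitDoubleCover H K) {c : H} (hc : c ∈ Subgroup.center H) : c * c = 1 := by
  have h2 := h.1
  have h3 : (⟨c, hc⟩ : Subgroup.center H) ^ Nat.card (Subgroup.center H) = 1 := pow_card_eq_one'
  rw [h2, pow_two] at h3
  exact congrArg Subtype.val h3

/-- The image of a lift of the identity lies in the centre: a central product formula. -/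
theorem central_comm {c : H} (hc : c ∈ Subgroup.center H) (g : H) : c * g = g * c :=
  (Subgroup.mem_center_iff.mp hc g).symm

/-- A section contradicts non-splitness. -/
theorem no_section {P : Type*} [Group P] (h : Cfsg.IsNonsplitDoubleCover H K) {π : H →* K}
    (hs : Function.Surjective π) (hk : π.ker = Subgroup.center H) (Φ : P →* H)
    (hb : Function.Bijective (π.comp Φ)) : False := by
  apply h.2.2 Φ.range
  apply Subgroup.isComplement'_of_disjoint_and_mul_eq_univ
  · rw [Subgroup.disjoint_def]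
    rintro x hx ⟨p, rfl⟩
    have h1 : π (Φ p) = 1 := by
      rw [← MonoidHom.mem_ker, hk]
      exact hx
    have h2 : p = 1 := hb.1 (by simpa using h1)
    rw [h2, map_one]
  · rw [Set.eq_univ_iff_forall]
    intro g
    obtain ⟨p, hp⟩ := hb.2 (π g)
    have hp' : π (Φ p) = π g := hp
    refine Set.mem_mul.mpr ⟨g * (Φ p)⁻¹, ?_, Φ p, ⟨p, rfl⟩, by group⟩
    have : g * (Φ p)⁻¹ ∈ π.ker := by
      rw [MonoidHom.mem_ker, map_mul, map_inv, hp', mul_inv_cancel]
    rw [hk] at this
    exact this

/-- All lifts of a conjugate of the image of an involution square to the identity. -/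
theorem lift_sq (h : Cfsg.IsNonsplitDoubleCover H K) {π : H →* K} (hk : π.ker = Subgroup.center H)
    {x g v : H} (hx : x * x = 1) (hv : π v = π g * π x * (π g)⁻¹) : v * v = 1 := by
  have hc : v * (g * x * g⁻¹)⁻¹ ∈ Subgroup.center H := by
    rw [← hk, MonoidHom.mem_ker, map_mul, map_inv, map_mul, map_mul, map_inv, hv, mul_inv_cancel]
  set c := v * (g * x * g⁻¹)⁻¹ with hcdef
  have hv' : v = c * (g * x * g⁻¹) := by rw [hcdef]; group
  have h1 : c * c = 1 := center_sq h hc
  have h2 : (g * x * g⁻¹) * (g * x * g⁻¹) = 1 := by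
    calc (g * x * g⁻¹) * (g * x * g⁻¹) = g * (x * x) * g⁻¹ := by group
      _ = 1 := by rw [hx]; group
  have hcm : Commute c (g * x * g⁻¹) := central_comm hc _
  calc v * v = v ^ 2 := (pow_two v).symm
    _ = (c * (g * x * g⁻¹)) ^ 2 := by rw [← hv']
    _ = c ^ 2 * (g * x * g⁻¹) ^ 2 := hcm.mul_pow 2
    _ = (c * c) * ((g * x * g⁻¹) * (g * x * g⁻¹)) := by rw [pow_two, pow_two]
    _ = 1 := by rw [h1, h2, mul_one]

/-- A lift of an element of order three, of order three. -/
theorem lift_cube (h : Cfsg.IsNonsplitDoubleCover H K) {π : H →* K} (hs : Function.Surjective π)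
    (hk : π.ker = Subgroup.center H) {γ : K} (hγ : γ ^ 3 = 1) : ∃ g : H, π g = γ ∧ g * g * g = 1 := by
  obtain ⟨w, rfl⟩ := hs γ
  have hc : w ^ 3 ∈ Subgroup.center H := by
    rw [← hk, MonoidHom.mem_ker, map_pow]
    exact hγ
  set c := w ^ 3 with hcdef
  have h1 : c * c = 1 := center_sq h hc
  have h2 : π c = 1 := by
    have : c ∈ π.ker := by rw [hk]; exact hc
    exact this
  refine ⟨w * c, by rw [map_mul, h2, mul_one], ?_⟩
  have hcw : Commute w c := (central_comm hc w).symm
  rw [← pow_three', hcw.mul_pow 3, ← hcdef]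
  calc c * c ^ 3 = (c * c) * (c * c) := by rw [pow_three']; group
    _ = 1 := by rw [h1, one_mul]

/-- Adjust a lift so that a cube relator holds. -/
theorem fix3 (h : Cfsg.IsNonsplitDoubleCover H K) {π : H →* K} (hk : π.ker = Subgroup.center H)
    {x y : H} (hxy : (π x * π y) ^ 3 = 1) : ∃ y' : H, π y' = π y ∧ x * y' * (x * y') * (x * y') = 1 := by
  have hc : (x * y) ^ 3 ∈ Subgroup.center H := by
    rw [← hk, MonoidHom.mem_ker, map_pow, map_mul]
    exact hxy
  set c := (x * y) ^ 3 with hcdef
  have h1 : c * c = 1 := center_sq h hc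
  have h2 : π c = 1 := by
    have : c ∈ π.ker := by rw [hk]; exact hc
    exact this
  refine ⟨c * y, by rw [map_mul, h2, one_mul], ?_⟩
  have h3 : x * (c * y) = c * (x * y) := by
    calc x * (c * y) = (x * c) * y := (mul_assoc _ _ _).symm
      _ = (c * x) * y := by rw [central_comm hc x]
      _ = c * (x * y) := mul_assoc _ _ _
  have hcm : Commute c (x * y) := central_comm hc _
  rw [h3, ← pow_three', hcm.mul_pow 3, ← hcdef]
  calc c ^ 3 * c = (c * c) * (c * c) := by rw [pow_three']; group
    _ = 1 := by rw [h1, one_mul]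

end cov

section perm

/-- The alternating group lies in a subgroup containing "half" of the adjacent transpositions. -/
theorem alt_le_of_adj (m : ℕ) (τ : Perm (Fin (m + 1))) (hτ : sign τ = -1) (hττ : τ * τ = 1)
    (R : Subgroup (Perm (Fin (m + 1)))) (hR : ∀ r ∈ R, sign r = 1)
    (hadj : ∀ i : Fin m, ∃ r ∈ R, swap i.castSucc i.succ = r * τ ∧ τ * r * τ ∈ R) :
    ∀ σ : Perm (Fin (m + 1)), sign σ = 1 → σ ∈ R := by
  have key : ∀ σ : Perm (Fin (m + 1)), σ ∈ R ∨ σ * τ ∈ R := by
    intro σ
    refine Submonoid.induction_of_closure_eq_top_right (Equiv.Perm.mclosure_swap_castSucc_succ m) σ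
      (Or.inl R.one_mem) ?_
    rintro x y ⟨i, rfl⟩ hx
    obtain ⟨r, hr, e, hr2⟩ := hadj i
    show x * swap i.castSucc i.succ ∈ R ∨ x * swap i.castSucc i.succ * τ ∈ R
    rw [e]
    rcases hx with hx | hx
    · right
      have : x * (r * τ) * τ = x * r := by
        rw [mul_assoc, mul_assoc, hττ, mul_one]
      rw [this]
      exact R.mul_mem hx hr
    · left
      have : x * (r * τ) = (x * τ) * (τ * r * τ) := by
        calc x * (r * τ) = x * (1 * (r * τ)) := by rw [one_mul]
          _ = x * ((τ * τ) * (r * τ)) := by rw [hττ]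
          _ = (x * τ) * (τ * r * τ) := by group
      rw [this]
      exact R.mul_mem hx hr2
  intro σ hσ
  rcases key σ with h | h
  · exact h
  · exfalso
    have := hR _ h
    rw [map_mul, hσ, hτ] at this
    exact absurd this (by decide)

end perm

section conj

variable {α : Type*} [Fintype α] [DecidableEq α]

/-- An even involution on at most seven points is conjugate, by an even permutation, to a product of two
disjoint transpositions. -/
theorem even_inv_conj (hc : Fintype.card α ≤ 7) {a b c d : α} (hab : a ≠ b) (hac : a ≠ c) (had : a ≠ d) (hbc : b ≠ c)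
    (hbd : b ≠ d) (hcd : c ≠ d) {s : Perm α} (hs : s * s = 1) (hs1 : s ≠ 1) (hsign : sign s = 1) :
    ∃ h : Perm α, sign h = 1 ∧ h * s * h⁻¹ = swap a b * swap c d := by
  have hdis : Equiv.Perm.Disjoint (swap a b) (swap c d) := by
    rw [Equiv.Perm.disjoint_iff_disjoint_support, Equiv.Perm.support_swap hab, Equiv.Perm.support_swap hcd]
    simp [hac, had, hbc, hbd]
    exact ⟨⟨hac.symm, hbc.symm⟩, had.symm, hbd.symm⟩
  have hct0 : (swap a b * swap c d).cycleType = {2, 2} := by
    rw [Equiv.Perm.Disjoint.cycleType_mul hdis, (Equiv.Perm.isCycle_swap hab).cycleType, (Equiv.Perm.isCycle_swap hcd).cycleType,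
      Equiv.Perm.card_support_swap hab, Equiv.Perm.card_support_swap hcd]
    rfl
  have hord : s ^ 2 = 1 := by rw [pow_two, hs]
  have hall : ∀ k ∈ s.cycleType, k = 2 := by
    intro k hk
    have h1 : k ∣ orderOf s := by
      rw [← Equiv.Perm.lcm_cycleType]
      exact Multiset.dvd_lcm hk
    have h2 : orderOf s ∣ 2 := orderOf_dvd_of_pow_eq_one hord
    have h3 : k ∣ 2 := h1.trans h2
    have h4 : 2 ≤ k := Equiv.Perm.two_le_of_mem_cycleType hk
    have := Nat.le_of_dvd (by norm_num) h3
    omega
  obtain ⟨k, hk⟩ : ∃ k, k = Multiset.card s.cycleType := ⟨_, rfl⟩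
  have hrep : s.cycleType = Multiset.replicate k 2 :=
    Multiset.eq_replicate.mpr ⟨hk.symm, hall⟩
  have hsum : s.cycleType.sum = 2 * k := by
    rw [hrep, Multiset.sum_replicate]
    simp [Nat.mul_comm]
  have hle : s.cycleType.sum ≤ Fintype.card α := Equiv.Perm.sum_cycleType_le s
  have hk3 : k ≤ 3 := by omega
  have hsg : (1 : ℤˣ) = (-1) ^ (2 * k + k) := by
    have := Equiv.Perm.sign_of_cycleType s
    rw [hsign, hsum, ← hk] at this
    exact this
  have hk0 : k ≠ 0 := by
    intro h0
    apply hs1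
    rw [← Equiv.Perm.cycleType_eq_zero, hrep, h0]
    rfl
  have hk2 : k = 2 := by
    have h123 : k = 1 ∨ k = 2 ∨ k = 3 := by omega
    rcases h123 with h | h | h
    · rw [h] at hsg
      exact absurd hsg (by decide)
    · exact h
    · rw [h] at hsg
      exact absurd hsg (by decide)
  have hct : s.cycleType = {2, 2} := by
    rw [hrep, hk2]
    rfl
  have hconj : IsConj s (swap a b * swap c d) := by
    rw [Equiv.Perm.isConj_iff_cycleType_eq, hct, hct0]
  obtain ⟨g, hg⟩ := isConj_iff.mp hconj
  rcases Int.units_eq_one_or (sign g) with h1 | h1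
  · exact ⟨g, h1, hg⟩
  · refine ⟨swap a b * g, ?_, ?_⟩
    · rw [map_mul, h1, sign_swap hab]
      rfl
    · have hcomm : swap a b * swap c d = swap c d * swap a b := Equiv.Perm.Disjoint.commute hdis
      have h2 : swap a b * (swap a b * swap c d) * (swap a b)⁻¹ = swap a b * swap c d := by
        rw [hcomm]
        group
        exact hcomm
      calc swap a b * g * s * (swap a b * g)⁻¹ = swap a b * (g * s * g⁻¹) * (swap a b)⁻¹ := by group
        _ = swap a b * (swap a b * swap c d) * (swap a b)⁻¹ := by rw [hg]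
        _ = swap a b * swap c d := h2

end conj

section assemble

variable {H : Type*} [Group H]

/-- The lifts of involutions of the alternating group, given a non-central involution of the cover. -/
theorem liftable {n : ℕ} (hn : n ≤ 7) (a b c d : Fin n) (hab : a ≠ b) (hac : a ≠ c) (had : a ≠ d) (hbc : b ≠ c)
    (hbd : b ≠ d) (hcd : c ≠ d) (h : Cfsg.IsNonsplitDoubleCover H (alternatingGroup (Fin n)))
    {π : H →* alternatingGroup (Fin n)} (hs : Function.Surjective π) (hk : π.ker = Subgroup.center H)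
    {x : H} (hx : x * x = 1) (hxc : x ∉ Subgroup.center H) {v : H} (hv : π v * π v = 1) (hv1 : π v ≠ 1) :
    v * v = 1 := by
  have hcard : Fintype.card (Fin n) ≤ 7 := by simpa using hn
  have h1 : π x ≠ 1 := by
    intro h0
    apply hxc
    rw [← hk]
    exact h0
  have hxs : (π x).1 * (π x).1 = 1 := by
    have := congrArg Subtype.val (show π x * π x = 1 by rw [← map_mul, hx, map_one])
    exact this
  have hvs : (π v).1 * (π v).1 = 1 := congrArg Subtype.val hv
  have hx1 : (π x).1 ≠ 1 := fun h0 => h1 (Subtype.ext h0)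
  have hv1' : (π v).1 ≠ 1 := fun h0 => hv1 (Subtype.ext h0)
  obtain ⟨p, hp, hpe⟩ := even_inv_conj hcard hab hac had hbc hbd hcd hxs hx1 (Equiv.Perm.mem_alternatingGroup.mp (π x).2)
  obtain ⟨q, hq, hqe⟩ := even_inv_conj hcard hab hac had hbc hbd hcd hvs hv1' (Equiv.Perm.mem_alternatingGroup.mp (π v).2)
  have hq2 : q⁻¹ * p ∈ alternatingGroup (Fin n) := by
    rw [Equiv.Perm.mem_alternatingGroup, map_mul, map_inv, hp, hq]
    rfl
  obtain ⟨g, hg⟩ := hs ⟨q⁻¹ * p, hq2⟩
  apply lift_sq h hk (x := x) (g := g) hx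
  apply Subtype.ext
  show (π v).1 = (π g).1 * (π x).1 * ((π g)⁻¹).1
  have hgv : (π g).1 = q⁻¹ * p := congrArg Subtype.val hg
  have hgi : ((π g)⁻¹).1 = ((π g).1)⁻¹ := rfl
  rw [hgi, hgv]
  have e : q * (π v).1 * q⁻¹ = p * (π x).1 * p⁻¹ := hqe.trans hpe.symm
  calc (π v).1 = q⁻¹ * (q * (π v).1 * q⁻¹) * q := by group
    _ = q⁻¹ * (p * (π x).1 * p⁻¹) * q := by rw [e]
    _ = q⁻¹ * p * (π x).1 * (q⁻¹ * p)⁻¹ := by group

/-- Surjectivity onto the alternating group. -/
theorem surj_of_adj {P : Type*} [Group P] (m : ℕ) (φ : P →* alternatingGroup (Fin (m + 1))) (τ : Perm (Fin (m + 1)))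
    (hτ : sign τ = -1) (hττ : τ * τ = 1)
    (hadj : ∀ i : Fin m, ∃ r ∈ φ.range.map (alternatingGroup (Fin (m + 1))).subtype,
      swap i.castSucc i.succ = r * τ ∧ τ * r * τ ∈ φ.range.map (alternatingGroup (Fin (m + 1))).subtype) :
    Function.Surjective φ := by
  intro σ
  have h := alt_le_of_adj m τ hτ hττ (φ.range.map (alternatingGroup (Fin (m + 1))).subtype) (by
    rintro _ ⟨y, -, rfl⟩
    exact Equiv.Perm.mem_alternatingGroup.mp y.2) hadj σ.1 (Equiv.Perm.mem_alternatingGroup.mp σ.2)
  obtain ⟨y, ⟨p, rfl⟩, hy⟩ := h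
  exact ⟨p, Subtype.ext hy⟩

/-- All involutions central: two involutions agree. -/
theorem inv_unique (h : Nat.card (Subgroup.center H) = 2)
    (hall : ∀ x : H, x * x = 1 → x ∈ Subgroup.center H) {x y : H} (hx : orderOf x = 2) (hy : orderOf y = 2) : x = y := by
  have hx2 : x * x = 1 := by rw [← pow_two, ← hx, pow_orderOf_eq_one]
  have hy2 : y * y = 1 := by rw [← pow_two, ← hy, pow_orderOf_eq_one]
  have hx1 : x ≠ 1 := by
    rintro rfl
    simp at hx
  have hy1 : y ≠ 1 := by
    rintro rfl
    simp at hy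
  obtain ⟨u, -, hu⟩ := (Nat.card_eq_two_iff' (1 : Subgroup.center H)).mp h
  have e1 := hu ⟨x, hall x hx2⟩ (fun h0 => hx1 (congrArg Subtype.val h0))
  have e2 := hu ⟨y, hall y hy2⟩ (fun h0 => hy1 (congrArg Subtype.val h0))
  have := e1.trans e2.symm
  exact congrArg Subtype.val this

/-- Alternating groups of degree at most three have no non-split double cover. -/
theorem small_degree {n : ℕ} (hn : n ≤ 3) (h : Cfsg.IsNonsplitDoubleCover H (alternatingGroup (Fin n))) : False := by
  obtain ⟨π, hs, hk⟩ := cov_pi h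
  have hcyc : IsCyclic (alternatingGroup (Fin n)) := by
    interval_cases n
    · exact isCyclic_of_subsingleton
    · exact isCyclic_of_subsingleton
    · have hc : Nat.card (alternatingGroup (Fin 2)) = 1 := by
        rw [Nat.card_eq_fintype_card]
        decide
      have := (Nat.card_eq_one_iff_unique.mp hc).1
      exact isCyclic_of_subsingleton
    · have hc : Nat.card (alternatingGroup (Fin 3)) = 3 := by
        rw [Nat.card_eq_fintype_card]
        decide
      have : Fact (Nat.Prime (Nat.card (alternatingGroup (Fin 3)))) := ⟨by rw [hc]; norm_num⟩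
      exact isCyclic_of_prime_card rfl
  have hcomm : ∀ a b : H, a * b = b * a := commutative_of_cyclic_center_quotient π (le_of_eq hk)
  have htop : Subgroup.center H = ⊤ := by
    rw [eq_top_iff]
    intro g _
    rw [Subgroup.mem_center_iff]
    exact fun k => hcomm k g
  apply h.2.2 ⊥
  rw [htop]
  exact Subgroup.isComplement'_top_bot

end assemble

end Cfsg.Agent.Lib.ToddCox.AnCov
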