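/-
Involutions in double covers of the alternating group of degree 4 (helper16).
-/
import Cfsg.Agent.Lib.ToddCox.AnCov.Basic
import Cfsg.Agent.Lib.ToddCox.A4O.Main

set_option autoImplicit false
set_option maxRecDepth 100000

namespace Cfsg.Agent.Lib.ToddCox.AnCov.A4

open Equiv Equiv.Perm Cfsg.Agent.Lib.ToddCox

abbrev Q : Type := PresentedGroup (Cfsg.Spor.coxRelators OPA4.edges ∪ {r | r ∈ OPA4.extra})
abbrev K : Type := alternatingGroup (Fin 4)

def pT : OPA4.Gen → Perm (Fin 4)
  | .g => swap 0 1 * swap 1 2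
  | .a => swap 0 1 * swap 2 3

theorem pT_even (y : OPA4.Gen) : pT y ∈ alternatingGroup (Fin 4) := by
  rw [Equiv.Perm.mem_alternatingGroup]
  cases y <;> (simp only [pT]; rw [map_mul, sign_swap (by decide), sign_swap (by decide)]; rfl)

def kT (y : OPA4.Gen) : K := ⟨pT y, pT_even y⟩

theorem kT_rel : ∀ r ∈ coxList OPA4.edges ++ OPA4.extra, FreeGroup.lift kT r = 1 := by decide +kernel

noncomputable def φ : Q →* K := presMap OPA4.edges OPA4.extra kT kT_rel

theorem φ_of (y : OPA4.Gen) : φ (PresentedGroup.of y) = kT y := presMap_of _ _ _ _ _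

theorem pT_mem (y : OPA4.Gen) : pT y ∈ φ.range.map (alternatingGroup (Fin 4)).subtype :=
  ⟨kT y, ⟨PresentedGroup.of y, φ_of y⟩, rfl⟩

theorem φ_surj : Function.Surjective φ := by
  apply surj_of_adj 3 φ (swap 0 1) (sign_swap (by decide)) (swap_mul_self _ _)
  intro i
  fin_cases i
  · exact ⟨1, Subgroup.one_mem _, by decide +kernel, by
      have : (swap (0 : Fin 4) 1) * 1 * swap 0 1 = 1 := by decide +kernel
      rw [this]
      exact Subgroup.one_mem _⟩
  · exact ⟨(pT .g)⁻¹, Subgroup.inv_mem _ (pT_mem .g), by decide +kernel, by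
      have : (swap (0 : Fin 4) 1) * (pT .g)⁻¹ * swap 0 1 = pT .g := by decide +kernel
      rw [this]
      exact pT_mem .g⟩
  · exact ⟨pT .a, pT_mem .a, by decide +kernel, by
      have : (swap (0 : Fin 4) 1) * pT .a * swap 0 1 = pT .a := by decide +kernel
      rw [this]
      exact pT_mem .a⟩

theorem card_K : Nat.card K = 12 := by
  have h : 2 * Nat.card K = Nat.card (Perm (Fin 4)) := two_mul_nat_card_alternatingGroup (α := Fin 4)
  rw [Nat.card_eq_fintype_card (α := Perm (Fin 4)), Fintype.card_perm, Fintype.card_fin] at h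
  have h2 : Nat.factorial 4 = 24 := by decide
  omega

theorem φ_bij : Function.Bijective φ := by
  have hc := A4O.card_bd
  have : Finite Q := Nat.finite_of_card_ne_zero hc.1.ne'
  apply φ_surj.bijective_of_nat_card_le
  rw [card_K]
  exact hc.2

theorem central_inv {H : Type*} [Group H] (h : Cfsg.IsNonsplitDoubleCover H K) {x : H} (hx : x * x = 1) :
    x ∈ Subgroup.center H := by
  by_contra hxc
  obtain ⟨π, hs, hk⟩ := cov_pi h
  have hL : ∀ v : H, π v * π v = 1 → π v ≠ 1 → v * v = 1 := fun v hv hv1 =>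
    liftable (by norm_num) 0 1 2 3 (by decide) (by decide) (by decide) (by decide) (by decide) (by decide) h hs hk hx hxc hv hv1
  obtain ⟨lg, hgπ, hg3⟩ := lift_cube h hs hk (γ := kT .g) (by decide +kernel)
  obtain ⟨la0, hla0⟩ := hs (kT .a)
  obtain ⟨la, hlaπ, hca⟩ := fix3 h hk (x := lg) (y := la0) (by rw [hgπ, hla0]; decide +kernel)
  have haπ : π la = kT .a := hlaπ.trans hla0
  have hsa : la * la = 1 := hL _ (by rw [haπ]; decide +kernel) (by rw [haπ]; decide +kernel)
  let T : OPA4.Gen → H := fun y => match y with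
    | .g => lg
    | .a => la
  have hTπ : ∀ y, π (T y) = kT y := by
    intro y
    cases y
    · exact hgπ
    · exact haπ
  have hrel : ∀ r ∈ coxList OPA4.edges ++ OPA4.extra, FreeGroup.lift T r = 1 := by
    intro r hr0
    have hr : r ∈ OPA4.extra := hr0
    simp only [OPA4.extra, List.mem_cons, List.not_mem_nil, or_false] at hr
    rcases hr with rfl | rfl | rfl
    · simp only [map_mul, FreeGroup.lift_apply_of]
      exact hg3
    · simp only [map_mul, FreeGroup.lift_apply_of]
      exact hsa
    · simp only [map_mul, FreeGroup.lift_apply_of]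
      simpa only [mul_assoc] using hca
  let Φ : Q →* H := presMap OPA4.edges OPA4.extra T hrel
  have hcomp : π.comp Φ = φ := by
    apply PresentedGroup.ext
    intro y
    show π (presMap OPA4.edges OPA4.extra T hrel (PresentedGroup.of y)) = φ (PresentedGroup.of y)
    rw [presMap_of, φ_of, hTπ]
  apply no_section h hs hk Φ
  rw [hcomp]
  exact φ_bij

theorem main {H : Type*} [Group H] (h : Cfsg.IsNonsplitDoubleCover H K) {x y : H} (hx : orderOf x = 2) (hy : orderOf y = 2) : x = y :=
  inv_unique h.1 (fun _ hz => central_inv h hz) hx hy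

end Cfsg.Agent.Lib.ToddCox.AnCov.A4
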