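/-
Involutions in double covers of the alternating group of degree 6 (helper16).
-/
import Cfsg.Agent.Lib.ToddCox.AnCov.Basic
import Cfsg.Agent.Lib.ToddCox.A6O.Main

set_option autoImplicit false
set_option maxRecDepth 100000

namespace Cfsg.Agent.Lib.ToddCox.AnCov.A6

open Equiv Equiv.Perm Cfsg.Agent.Lib.ToddCox

abbrev Q : Type := PresentedGroup (Cfsg.Spor.coxRelators OPA6.edges ∪ {r | r ∈ OPA6.extra})
abbrev K : Type := alternatingGroup (Fin 6)

def pT : OPA6.Gen → Perm (Fin 6)
  | .g => swap 0 1 * swap 1 2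
  | .a => swap 0 1 * swap 2 3
  | .b => swap 0 1 * swap 3 4
  | .c => swap 0 1 * swap 4 5

theorem pT_even (y : OPA6.Gen) : pT y ∈ alternatingGroup (Fin 6) := by
  rw [Equiv.Perm.mem_alternatingGroup]
  cases y <;> (simp only [pT]; rw [map_mul, sign_swap (by decide), sign_swap (by decide)]; rfl)

def kT (y : OPA6.Gen) : K := ⟨pT y, pT_even y⟩

theorem kT_rel : ∀ r ∈ coxList OPA6.edges ++ OPA6.extra, FreeGroup.lift kT r = 1 := by decide +kernel

noncomputable def φ : Q →* K := presMap OPA6.edges OPA6.extra kT kT_rel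

theorem φ_of (y : OPA6.Gen) : φ (PresentedGroup.of y) = kT y := presMap_of _ _ _ _ _

theorem pT_mem (y : OPA6.Gen) : pT y ∈ φ.range.map (alternatingGroup (Fin 6)).subtype :=
  ⟨kT y, ⟨PresentedGroup.of y, φ_of y⟩, rfl⟩

theorem φ_surj : Function.Surjective φ := by
  apply surj_of_adj 5 φ (swap 0 1) (sign_swap (by decide)) (swap_mul_self _ _)
  intro i
  fin_cases i
  · exact ⟨1, Subgroup.one_mem _, by decide +kernel, by
      have : (swap (0 : Fin 6) 1) * 1 * swap 0 1 = 1 := by decide +kernel
      rw [this]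
      exact Subgroup.one_mem _⟩
  · exact ⟨(pT .g)⁻¹, Subgroup.inv_mem _ (pT_mem .g), by decide +kernel, by
      have : (swap (0 : Fin 6) 1) * (pT .g)⁻¹ * swap 0 1 = pT .g := by decide +kernel
      rw [this]
      exact pT_mem .g⟩
  · exact ⟨pT .a, pT_mem .a, by decide +kernel, by
      have : (swap (0 : Fin 6) 1) * pT .a * swap 0 1 = pT .a := by decide +kernel
      rw [this]
      exact pT_mem .a⟩
  · exact ⟨pT .b, pT_mem .b, by decide +kernel, by
      have : (swap (0 : Fin 6) 1) * pT .b * swap 0 1 = pT .b := by decide +kernel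
      rw [this]
      exact pT_mem .b⟩
  · exact ⟨pT .c, pT_mem .c, by decide +kernel, by
      have : (swap (0 : Fin 6) 1) * pT .c * swap 0 1 = pT .c := by decide +kernel
      rw [this]
      exact pT_mem .c⟩

theorem card_K : Nat.card K = 360 := by
  have h : 2 * Nat.card K = Nat.card (Perm (Fin 6)) := two_mul_nat_card_alternatingGroup (α := Fin 6)
  rw [Nat.card_eq_fintype_card (α := Perm (Fin 6)), Fintype.card_perm, Fintype.card_fin] at h
  have h2 : Nat.factorial 6 = 720 := by decide
  omega

theorem φ_bij : Function.Bijective φ := by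
  have hc := A6O.card_bd
  have : Finite Q := Nat.finite_of_card_ne_zero hc.1.ne'
  apply φ_surj.bijective_of_nat_card_le
  rw [card_K]
  exact hc.2

theorem central_inv {H : Type*} [Group H] (h : Cfsg.IsNonsplitDoubleCover H K) {x : H} (hx : x * x = 1) :
    x ∈ Subgroup.center H := by
  by_contra hxc
  obtain ⟨π, hs, hk⟩ := cov_pi h
  have hL : ∀ v : H, π v * π v = 1 → π v ≠ 1 → v * v = 1 := fun v hv hv1 =>
    liftable (by norm_num) 0 1 2 3 (by decide) (by decide) (by decide) (by decide) (by decide) (by decide) h hs hk hx hxc hv hv1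
  obtain ⟨lg, hgπ, hg3⟩ := lift_cube h hs hk (γ := kT .g) (by decide +kernel)
  obtain ⟨la0, hla0⟩ := hs (kT .a)
  obtain ⟨la, hlaπ, hca⟩ := fix3 h hk (x := lg) (y := la0) (by rw [hgπ, hla0]; decide +kernel)
  have haπ : π la = kT .a := hlaπ.trans hla0
  obtain ⟨lb0, hlb0⟩ := hs (kT .b)
  obtain ⟨lb, hlbπ, hcb⟩ := fix3 h hk (x := la) (y := lb0) (by rw [haπ, hlb0]; decide +kernel)
  have hbπ : π lb = kT .b := hlbπ.trans hlb0
  obtain ⟨lc0, hlc0⟩ := hs (kT .c)
  obtain ⟨lc, hlcπ, hcc⟩ := fix3 h hk (x := lb) (y := lc0) (by rw [hbπ, hlc0]; decide +kernel)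
  have hcπ : π lc = kT .c := hlcπ.trans hlc0
  have hsa : la * la = 1 := hL _ (by rw [haπ]; decide +kernel) (by rw [haπ]; decide +kernel)
  have hsb : lb * lb = 1 := hL _ (by rw [hbπ]; decide +kernel) (by rw [hbπ]; decide +kernel)
  have hsc : lc * lc = 1 := hL _ (by rw [hcπ]; decide +kernel) (by rw [hcπ]; decide +kernel)
  have hpgb : (lg * lb) * (lg * lb) = 1 := hL _ (by rw [map_mul, hgπ, hbπ]; decide +kernel) (by rw [map_mul, hgπ, hbπ]; decide +kernel)
  have hpgc : (lg * lc) * (lg * lc) = 1 := hL _ (by rw [map_mul, hgπ, hcπ]; decide +kernel) (by rw [map_mul, hgπ, hcπ]; decide +kernel)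
  have hpac : (la * lc) * (la * lc) = 1 := hL _ (by rw [map_mul, haπ, hcπ]; decide +kernel) (by rw [map_mul, haπ, hcπ]; decide +kernel)
  let T : OPA6.Gen → H := fun y => match y with
    | .g => lg
    | .a => la
    | .b => lb
    | .c => lc
  have hTπ : ∀ y, π (T y) = kT y := by
    intro y
    cases y
    · exact hgπ
    · exact haπ
    · exact hbπ
    · exact hcπ
  have hrel : ∀ r ∈ coxList OPA6.edges ++ OPA6.extra, FreeGroup.lift T r = 1 := by
    intro r hr0
    have hr : r ∈ OPA6.extra := hr0
    simp only [OPA6.extra, List.mem_cons, List.not_mem_nil, or_false] at hr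
    rcases hr with rfl | rfl | rfl | rfl | rfl | rfl | rfl | rfl | rfl | rfl
    · simp only [map_mul, FreeGroup.lift_apply_of]
      exact hg3
    · simp only [map_mul, FreeGroup.lift_apply_of]
      exact hsa
    · simp only [map_mul, FreeGroup.lift_apply_of]
      exact hsb
    · simp only [map_mul, FreeGroup.lift_apply_of]
      exact hsc
    · simp only [map_mul, FreeGroup.lift_apply_of]
      simpa only [mul_assoc] using hca
    · simp only [map_mul, FreeGroup.lift_apply_of]
      simpa only [mul_assoc] using hpgb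
    · simp only [map_mul, FreeGroup.lift_apply_of]
      simpa only [mul_assoc] using hpgc
    · simp only [map_mul, FreeGroup.lift_apply_of]
      simpa only [mul_assoc] using hcb
    · simp only [map_mul, FreeGroup.lift_apply_of]
      simpa only [mul_assoc] using hpac
    · simp only [map_mul, FreeGroup.lift_apply_of]
      simpa only [mul_assoc] using hcc
  let Φ : Q →* H := presMap OPA6.edges OPA6.extra T hrel
  have hcomp : π.comp Φ = φ := by
    apply PresentedGroup.ext
    intro y
    show π (presMap OPA6.edges OPA6.extra T hrel (PresentedGroup.of y)) = φ (PresentedGroup.of y)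
    rw [presMap_of, φ_of, hTπ]
  apply no_section h hs hk Φ
  rw [hcomp]
  exact φ_bij

theorem main {H : Type*} [Group H] (h : Cfsg.IsNonsplitDoubleCover H K) {x y : H} (hx : orderOf x = 2) (hy : orderOf y = 2) : x = y :=
  inv_unique h.1 (fun _ hz => central_inv h hz) hx hy

end Cfsg.Agent.Lib.ToddCox.AnCov.A6
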