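/-
A non-split double cover of the alternating group of degree eight with several involutions (helper16).
-/
import Cfsg.Agent.Lib.ToddCox.AnCov.Basic
import Cfsg.Agent.Lib.ToddCox.A82O.Main
import Cfsg.Agent.Lib.ToddCox.DCover
import Cfsg.Agent.Lib.ToddCox.WordHom

set_option autoImplicit false
set_option maxRecDepth 100000

namespace Cfsg.Agent.Lib.ToddCox.AnCov.A8

open Equiv Equiv.Perm Cfsg.Agent.Lib.ToddCox
open scoped commutatorElement

abbrev rels : Set (FreeGroup OPA82.Gen) := Cfsg.Spor.coxRelators OPA82.edges ∪ {r | r ∈ OPA82.extra}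
abbrev Q : Type := PresentedGroup rels
abbrev K : Type := alternatingGroup (Fin 8)

def pT : OPA82.Gen → Perm (Fin 8)
  | .a => swap 0 4 * swap 1 7 * swap 2 5 * swap 3 6
  | .b => swap 0 7 * swap 1 4 * swap 2 6 * swap 3 5
  | .c => swap 0 2 * swap 1 5 * swap 3 4 * swap 6 7
  | .d => swap 0 5 * swap 1 3 * swap 2 4 * swap 6 7
  | .e => swap 0 7 * swap 1 6 * swap 2 5 * swap 3 4
  | .f => swap 0 6 * swap 1 3 * swap 2 4 * swap 5 7

theorem pT_even (y : OPA82.Gen) : pT y ∈ alternatingGroup (Fin 8) := by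
  rw [Equiv.Perm.mem_alternatingGroup]
  cases y <;> (simp only [pT]; rw [map_mul, map_mul, map_mul, sign_swap (by decide), sign_swap (by decide), sign_swap (by decide), sign_swap (by decide)]; rfl)

def kT (y : OPA82.Gen) : K := ⟨pT y, pT_even y⟩

theorem kT_rel : ∀ r ∈ coxList OPA82.edges ++ OPA82.extra, FreeGroup.lift kT r = 1 := by decide +kernel

noncomputable def φ : Q →* K := presMap OPA82.edges OPA82.extra kT kT_rel

theorem φ_mk (r : FreeGroup OPA82.Gen) : φ (PresentedGroup.mk rels r) = FreeGroup.lift kT r := rfl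

theorem lift_mem (r : FreeGroup OPA82.Gen) : (FreeGroup.lift kT r).1 ∈ φ.range.map (alternatingGroup (Fin 8)).subtype :=
  ⟨FreeGroup.lift kT r, ⟨PresentedGroup.mk rels r, rfl⟩, rfl⟩

def f1 : FreeGroup OPA82.Gen := OPA82.a * OPA82.c * OPA82.f * OPA82.e * OPA82.c * OPA82.a * OPA82.f * OPA82.e * OPA82.b
def f2 : FreeGroup OPA82.Gen := OPA82.e * OPA82.a * OPA82.f * OPA82.e * OPA82.f * OPA82.b * OPA82.e
def f3 : FreeGroup OPA82.Gen := OPA82.f * OPA82.e * OPA82.a * OPA82.b * OPA82.f * OPA82.b * OPA82.d * OPA82.e * OPA82.f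
def f4 : FreeGroup OPA82.Gen := OPA82.b * OPA82.f * OPA82.c * OPA82.e * OPA82.a * OPA82.d * OPA82.f * OPA82.a * OPA82.e
def f5 : FreeGroup OPA82.Gen := OPA82.f * OPA82.e * OPA82.a * OPA82.b * OPA82.f * OPA82.b * OPA82.f * OPA82.e * OPA82.f
def f6 : FreeGroup OPA82.Gen := OPA82.c * OPA82.e * OPA82.a * OPA82.f * OPA82.a * OPA82.c * OPA82.e * OPA82.c

theorem φ_surj : Function.Surjective φ := by
  apply surj_of_adj 7 φ (swap 0 1) (sign_swap (by decide)) (swap_mul_self _ _)
  intro i
  fin_cases i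
  · exact ⟨1, Subgroup.one_mem _, by decide +kernel, by
      have : (swap (0 : Fin 8) 1) * 1 * swap 0 1 = 1 := by decide +kernel
      rw [this]
      exact Subgroup.one_mem _⟩
  · exact ⟨(FreeGroup.lift kT f1).1, lift_mem _, by decide +kernel, by
      have : (swap (0 : Fin 8) 1) * (FreeGroup.lift kT f1).1 * swap 0 1 = ((FreeGroup.lift kT f1).1)⁻¹ := by decide +kernel
      rw [this]
      exact Subgroup.inv_mem _ (lift_mem _)⟩
  · exact ⟨(FreeGroup.lift kT f2).1, lift_mem _, by decide +kernel, by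
      have : (swap (0 : Fin 8) 1) * (FreeGroup.lift kT f2).1 * swap 0 1 = (FreeGroup.lift kT f2).1 := by decide +kernel
      rw [this]
      exact lift_mem _⟩
  · exact ⟨(FreeGroup.lift kT f3).1, lift_mem _, by decide +kernel, by
      have : (swap (0 : Fin 8) 1) * (FreeGroup.lift kT f3).1 * swap 0 1 = (FreeGroup.lift kT f3).1 := by decide +kernel
      rw [this]
      exact lift_mem _⟩
  · exact ⟨(FreeGroup.lift kT f4).1, lift_mem _, by decide +kernel, by
      have : (swap (0 : Fin 8) 1) * (FreeGroup.lift kT f4).1 * swap 0 1 = (FreeGroup.lift kT f4).1 := by decide +kernel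
      rw [this]
      exact lift_mem _⟩
  · exact ⟨(FreeGroup.lift kT f5).1, lift_mem _, by decide +kernel, by
      have : (swap (0 : Fin 8) 1) * (FreeGroup.lift kT f5).1 * swap 0 1 = (FreeGroup.lift kT f5).1 := by decide +kernel
      rw [this]
      exact lift_mem _⟩
  · exact ⟨(FreeGroup.lift kT f6).1, lift_mem _, by decide +kernel, by
      have : (swap (0 : Fin 8) 1) * (FreeGroup.lift kT f6).1 * swap 0 1 = (FreeGroup.lift kT f6).1 := by decide +kernel
      rw [this]
      exact lift_mem _⟩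

theorem card_K : Nat.card K = 20160 := by
  have h : 2 * Nat.card K = Nat.card (Perm (Fin 8)) := two_mul_nat_card_alternatingGroup (α := Fin 8)
  rw [Nat.card_eq_fintype_card (α := Perm (Fin 8)), Fintype.card_perm, Fintype.card_fin] at h
  have h2 : Nat.factorial 8 = 40320 := by decide
  omega

theorem card_Q : Nat.card Q = 40320 := by
  obtain ⟨_, _, _, h⟩ := A82O.rep_facts
  exact h

instance finQ : Finite Q := Nat.finite_of_card_ne_zero (by rw [card_Q]; norm_num)

theorem card_ker : Nat.card φ.ker = 2 := by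
  have h := Subgroup.card_eq_card_quotient_mul_card_subgroup φ.ker
  have e := QuotientGroup.quotientKerEquivOfSurjective φ φ_surj
  rw [Nat.card_congr e.toEquiv, card_Q, card_K] at h
  omega

def fx : FreeGroup OPA82.Gen := OPA82.e * OPA82.a * OPA82.f * OPA82.e * OPA82.f * OPA82.b * OPA82.e
def fg : FreeGroup OPA82.Gen := OPA82.b * OPA82.f * OPA82.c * OPA82.e * OPA82.a * OPA82.d * OPA82.f * OPA82.a * OPA82.e

abbrev x : Q := PresentedGroup.mk rels fx
abbrev g : Q := PresentedGroup.mk rels fg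
abbrev z : Q := x * x

theorem z_ne : z ≠ 1 := by
  have : PresentedGroup.mk rels (fx * fx) ≠ 1 :=
    A82O.mk_ne_one (by decide +kernel) (k := 0) (by norm_num) (by decide +kernel)
  simpa [map_mul] using this

theorem z_comm : ⁅x, g⁆ = z := by
  have : PresentedGroup.mk rels (fx * fg * fx⁻¹ * fg⁻¹ * (fx * fx)⁻¹) = 1 :=
    A82O.mk_one (by decide +kernel) (by decide +kernel)
  have h2 : x * g * x⁻¹ * g⁻¹ * (x * x)⁻¹ = 1 := by
    simpa only [map_mul, map_inv] using this
  rw [commutatorElement_def]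
  exact mul_inv_eq_one.mp h2

theorem z_sq : z * z = 1 := by
  have : PresentedGroup.mk rels (fx * fx * (fx * fx)) = 1 :=
    A82O.mk_one (by decide +kernel) (by decide +kernel)
  simpa only [map_mul] using this

theorem z_ker : z ∈ φ.ker := by
  rw [MonoidHom.mem_ker, map_mul, φ_mk]
  decide +kernel

theorem z_unique {c : Q} (hc : c ∈ φ.ker) (hc1 : c ≠ 1) : c = z := by
  obtain ⟨u, -, hu⟩ := (Nat.card_eq_two_iff' (1 : φ.ker)).mp card_ker
  have e1 := hu ⟨c, hc⟩ (fun h0 => hc1 (congrArg Subtype.val h0))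
  have e2 := hu ⟨z, z_ker⟩ (fun h0 => z_ne (congrArg Subtype.val h0))
  exact congrArg Subtype.val (e1.trans e2.symm)

theorem z_central (q : Q) : q * z = z * q := by
  have h1 : q * z * q⁻¹ ∈ φ.ker := Subgroup.Normal.conj_mem inferInstance _ z_ker _
  have h2 : q * z * q⁻¹ ≠ 1 := by
    intro h0
    apply z_ne
    have : q * z = q := mul_inv_eq_one.mp h0
    exact mul_left_cancel (this.trans (mul_one q).symm)
  have h3 := z_unique h1 h2
  exact mul_inv_eq_iff_eq_mul.mp h3

theorem ker_eq : φ.ker = Subgroup.zpowers z := by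
  symm
  apply Subgroup.eq_of_le_of_card_ge
  · rw [Subgroup.zpowers_le]
    exact z_ker
  · rw [card_ker, Nat.card_zpowers]
    have : Fact (Nat.Prime 2) := ⟨Nat.prime_two⟩
    have h : orderOf z = 2 := orderOf_eq_prime (by rw [pow_two]; exact z_sq) z_ne
    omega

theorem K_simple : IsSimpleGroup K := alternatingGroup.isSimpleGroup (by simp)

theorem K_na : ∃ u v : K, u * v ≠ v * u :=
  ⟨kT .a, kT .c, by decide +kernel⟩

theorem perf : commutator Q = ⊤ := by
  rw [eq_top_iff]
  intro q _
  have hz : z ∈ commutator Q := by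
    rw [← z_comm]
    exact Subgroup.commutator_mem_commutator (Subgroup.mem_top _) (Subgroup.mem_top _)
  have hK : commutator K = ⊤ := commutator_top_of_simple K_simple K_na
  have hm : (commutator Q).map φ = ⊤ := by
    rw [map_commutator_eq, MonoidHom.range_eq_top.mpr φ_surj]
    exact hK
  have h1 : φ q ∈ (commutator Q).map φ := by rw [hm]; trivial
  obtain ⟨c, hc, hcq⟩ := h1
  have h2 : c⁻¹ * q ∈ φ.ker := by
    rw [MonoidHom.mem_ker, map_mul, map_inv, hcq, inv_mul_cancel]
  rw [ker_eq] at h2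
  have h3 : Subgroup.zpowers z ≤ commutator Q := by
    rw [Subgroup.zpowers_le]
    exact hz
  have h4 := (commutator Q).mul_mem hc (h3 h2)
  simpa using h4

theorem cover : Cfsg.IsNonsplitDoubleCover Q K :=
  isNonsplitDoubleCover_of K_simple K_na z_ne z_sq z_central perf ker_eq
    (QuotientGroup.quotientKerEquivOfSurjective φ φ_surj)

theorem two_inv : ∃ u v : Q, u ≠ v ∧ orderOf u = 2 ∧ orderOf v = 2 := by
  have : Fact (Nat.Prime 2) := ⟨Nat.prime_two⟩
  have ha : PresentedGroup.mk rels OPA82.a ≠ 1 :=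
    A82O.mk_ne_one (by decide +kernel) (k := 1) (by norm_num) (by decide +kernel)
  have hb : PresentedGroup.mk rels OPA82.b ≠ 1 :=
    A82O.mk_ne_one (by decide +kernel) (k := 2) (by norm_num) (by decide +kernel)
  have hab : PresentedGroup.mk rels (OPA82.a * OPA82.b) ≠ 1 :=
    A82O.mk_ne_one (by decide +kernel) (k := 1) (by norm_num) (by decide +kernel)
  have ha2 : PresentedGroup.mk rels (OPA82.a * OPA82.a) = 1 :=
    A82O.mk_one (by decide +kernel) (by decide +kernel)
  have hb2 : PresentedGroup.mk rels (OPA82.b * OPA82.b) = 1 :=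
    A82O.mk_one (by decide +kernel) (by decide +kernel)
  refine ⟨PresentedGroup.mk rels OPA82.a, PresentedGroup.mk rels OPA82.b, ?_, ?_, ?_⟩
  · intro h
    apply hab
    rw [map_mul, h]
    rw [map_mul] at hb2
    exact hb2
  · exact orderOf_eq_prime (by rw [pow_two, ← map_mul]; exact ha2) ha
  · exact orderOf_eq_prime (by rw [pow_two, ← map_mul]; exact hb2) hb

end Cfsg.Agent.Lib.ToddCox.AnCov.A8
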